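import Cfsg.Agent.H342.EP.L213

/-!
# Extremely primitive groups whose stabiliser has a simple socle (helper919)

`N ⊴ G`. `Good N M` : `M ≠ G` is not abelian and contains the normalisers of the nontrivial characteristic subgroups
of `M ∩ N`.

* `good_of`, `index_le_good` : the two point stabilisers are good, `|Q : A| ≤ (number of good subgroups)²`;
* `card_good_le` : `N` simple of order `1092`, `|G : N| ≤ 2`: at most `14 + 78 + 91 + 91 = 274` good subgroups;
* `l213` : `A` with socle `PSL₂(13)`: `|Q : A| ≤ 274² = 75076`.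
-/

set_option autoImplicit false
set_option linter.unusedSectionVars false

namespace Cfsg.Agent.H919.EPX

open Subgroup Cfsg.Agent.H284

/-! ### Good subgroups -/

section good

variable {G : Type*} [Group G]

/-- the subgroups to be counted -/
structure Good (N M : Subgroup G) : Prop where
  nab : ¬ ∀ a ∈ M, ∀ b ∈ M, a * b = b * a
  ne : M ≠ ⊤
  norm : ∀ X : Subgroup (M ⊓ N : Subgroup G), X.Characteristic → X ≠ ⊥ → ∀ g : G,
    (∀ k ∈ X.map (M ⊓ N : Subgroup G).subtype, g * k * g⁻¹ ∈ X.map (M ⊓ N : Subgroup G).subtype) → g ∈ M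

variable [Finite G] {N : Subgroup G} [hN : N.Normal]

theorem Good.inf_ne {M : Subgroup G} (h : Good N M) (hi : N.index ≤ 3) : M ⊓ N ≠ ⊥ := by
  intro e
  apply h.nab
  have h1 : Nat.card M ≤ 3 := by
    refine le_trans ?_ hi
    have hq : Nat.card (G ⧸ N) = N.index := rfl
    rw [← hq]
    refine Nat.card_le_card_of_injective (fun m : M => ((m : G) : G ⧸ N)) ?_
    intro a b hab
    have hab' : ((a : G) : G ⧸ N) = ((b : G) : G ⧸ N) := hab
    rw [QuotientGroup.eq] at hab'
    have h2 : (a : G)⁻¹ * b ∈ M ⊓ N := ⟨M.mul_mem (M.inv_mem a.2) b.2, hab'⟩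
    rw [e, mem_bot, inv_mul_eq_one] at h2
    exact Subtype.ext h2
  have h0 : Nat.card M ≠ 0 := Nat.card_pos.ne'
  have h3 : Nat.card M = 1 ∨ Nat.card M = 2 ∨ Nat.card M = 3 := by omega
  have key : ∀ p : ℕ, p.Prime → Nat.card M = p → ∀ a ∈ M, ∀ b ∈ M, a * b = b * a := by
    intro p hp hM a ha b hb
    have : Fact p.Prime := ⟨hp⟩
    have hcyc : IsCyclic M := isCyclic_of_prime_card (p := p) hM
    exact Subtype.ext_iff.1 (hcyc.isMulCommutative.is_comm.comm (⟨a, ha⟩ : M) ⟨b, hb⟩)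
  rcases h3 with h3 | h3 | h3
  · rw [card_eq_one] at h3
    rw [h3]
    intro a ha b hb
    rw [mem_bot] at ha hb
    rw [ha, hb]
  · exact key 2 (by norm_num) h3
  · exact key 3 (by norm_num) h3

theorem Good.not_le {M : Subgroup G} (h : Good N M) (hi : N.index ≤ 3) : ¬ N ≤ M := by
  intro hle
  apply h.ne
  rw [eq_top_iff']
  intro g
  have e : (⊤ : Subgroup (M ⊓ N : Subgroup G)).map (M ⊓ N : Subgroup G).subtype = N := by
    rw [← MonoidHom.range_eq_map, range_subtype, inf_of_le_right hle]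
  refine h.norm ⊤ inferInstance ?_ g fun k hk => ?_
  · intro e1
    apply h.inf_ne hi
    rw [e1, Subgroup.map_bot] at e
    rw [inf_of_le_right hle, ← e]
  · rw [e] at hk ⊢
    exact hN.conj_mem k hk g

/-- `M` is the normaliser of every characteristic subgroup `≠ 1` of `M ∩ N` -/
theorem Good.eq_norm {M : Subgroup G} (h : Good N M) {X : Subgroup (M ⊓ N : Subgroup G)} (hX : X.Characteristic)
    (hXne : X ≠ ⊥) : M = normalizer ((X.map (M ⊓ N : Subgroup G).subtype : Subgroup G) : Set G) := by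
  apply le_antisymm
  · intro m hm
    have key : ∀ m ∈ M, ∀ k ∈ X.map (M ⊓ N : Subgroup G).subtype, m * k * m⁻¹ ∈
        X.map (M ⊓ N : Subgroup G).subtype := by
      rintro m hm _ ⟨k, hk, rfl⟩
      have hn : ((M ⊓ N).subgroupOf M).Normal := by
        rw [inf_comm, inf_subgroupOf_right]
        infer_instance
      let E : ((M ⊓ N).subgroupOf M) ≃* (M ⊓ N : Subgroup G) := subgroupOfEquivOfLe inf_le_left
      let τ : MulAut (M ⊓ N : Subgroup G) := MulAut.congr E (MulAut.conjNormal (⟨m, hm⟩ : M))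
      have hτ : X.map τ.toMonoidHom = X := Subgroup.characteristic_iff_map_eq.1 hX τ
      have h1 : τ k ∈ X := by
        rw [← hτ]
        exact ⟨k, hk, rfl⟩
      refine ⟨τ k, h1, ?_⟩
      show ((τ k : (M ⊓ N : Subgroup G)) : G) = m * (k : G) * m⁻¹
      have h2 : ((τ k : (M ⊓ N : Subgroup G)) : G) = (((MulAut.conjNormal (⟨m, hm⟩ : M) (E.symm k) :
        ((M ⊓ N).subgroupOf M)) : M) : G) := rfl
      rw [h2, MulAut.conjNormal_apply]
      rfl
    rw [mem_normalizer_iff]
    intro k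
    refine ⟨key m hm k, fun hk => ?_⟩
    have h3 := key m⁻¹ (M.inv_mem hm) _ hk
    have e2 : m⁻¹ * (m * k * m⁻¹) * m⁻¹⁻¹ = k := by group
    rwa [e2] at h3
  · intro g hg
    exact h.norm X hX hXne g fun k hk => (mem_normalizer_iff.1 hg k).1 hk

/-- the normalisers of the Sylow `p`-subgroups of `N` -/
def RS (N : Subgroup G) (p : ℕ) : Set (Subgroup G) :=
  Set.range fun P : Sylow p N => normalizer (((P : Subgroup N).map N.subtype : Subgroup G) : Set G)

theorem ncard_RS {p : ℕ} : (RS N p).ncard ≤ Nat.card (Sylow p N) := by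
  rw [RS, ← Set.image_univ, ← Set.ncard_univ]
  exact Set.ncard_image_le Set.finite_univ

theorem Good.mem_RS {M : Subgroup G} (h : Good N M) {p n : ℕ} [hp : Fact p.Prime] {X : Subgroup (M ⊓ N : Subgroup G)}
    (hX : X.Characteristic) (hc : Nat.card X = p ^ n) (hn0 : n ≠ 0) (hpn : ¬ p ^ (n + 1) ∣ Nat.card N) :
    M ∈ RS N p := by
  have hne : X ≠ ⊥ := by
    rintro rfl
    rw [card_bot] at hc
    have := Nat.one_lt_pow hn0 hp.out.one_lt
    omega
  let f : (M ⊓ N : Subgroup G) →* N := inclusion inf_le_right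
  have hf : Function.Injective f := inclusion_injective _
  have e1 : (X.map f).map N.subtype = X.map (M ⊓ N : Subgroup G).subtype := by
    rw [map_map]
    rfl
  have e2 : Nat.card (X.map f) = p ^ n := by
    rw [← hc]
    exact Nat.card_congr (X.equivMapOfInjective f hf).symm.toEquiv
  obtain ⟨P, hP⟩ := H342.EP.exists_sylow_eq e2 hpn
  refine ⟨P, ?_⟩
  show normalizer (((P : Subgroup N).map N.subtype : Subgroup G) : Set G) = M
  rw [hP, e1, ← h.eq_norm hX hne]

theorem card_sylow_eq {P : Type*} [Group P] [Finite P] {p n m : ℕ} [hp : Fact p.Prime] (S : Sylow p P)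
    (h : Nat.card P = p ^ n * m) (hm : ¬ p ∣ m) : Nat.card (S : Subgroup P) = p ^ n := by
  have h1 := S.card_eq_multiplicity
  rw [h, Nat.factorization_mul (pow_ne_zero _ hp.out.ne_zero) (by rintro rfl; exact hm (dvd_zero _))] at h1
  simpa [Nat.factorization_eq_zero_of_not_dvd hm, hp.out.factorization_self, Nat.factorization_pow] using h1

/-- Burnside: a Sylow subgroup of a simple group is not its own normaliser, when it is abelian -/
theorem card_sylow_ne {N : Type*} [Group N] [Finite N] (hs : IsSimpleGroup N) {p m : ℕ} [hp : Fact p.Prime]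
    (P : Sylow p N) (hab : ∀ a ∈ (P : Subgroup N), ∀ b ∈ (P : Subgroup N), a * b = b * a)
    (hm : Nat.card (P : Subgroup N) * m = Nat.card N) (hm1 : m ≠ 1) (hP1 : Nat.card (P : Subgroup N) ≠ 1) :
    Nat.card (Sylow p N) ≠ m := by
  intro e
  rw [P.card_eq_index_normalizer] at e
  have e' : (normalizer ((P : Subgroup N) : Set N)).index = m := e
  have h1 := card_mul_index (normalizer ((P : Subgroup N) : Set N))
  rw [e', ← hm] at h1
  have hm0 : 0 < m := by
    rcases Nat.eq_zero_or_pos m with rfl | h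
    · rw [mul_zero] at hm
      exact absurd hm.symm Nat.card_pos.ne'
    · exact h
  have h2 := Nat.eq_of_mul_eq_mul_right hm0 h1
  have h3 : (P : Subgroup N) = normalizer ((P : Subgroup N) : Set N) :=
    Subgroup.eq_of_le_of_card_ge le_normalizer h2.le
  have hle : normalizer ((P : Subgroup N) : Set N) ≤ centralizer ((P : Subgroup N) : Set N) := by
    rw [← h3]
    intro a ha
    rw [mem_centralizer_iff]
    exact fun b hb => hab b hb a ha
  have h4 := (MonoidHom.ker_transferSylow_isComplement' P hle).card_mul_card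
  have h4' : Nat.card (MonoidHom.transferSylow P hle).ker * Nat.card (P : Subgroup N) = Nat.card N := h4
  rcases hs.eq_bot_or_eq_top_of_normal (MonoidHom.transferSylow P hle).ker inferInstance with h5 | h5
  · rw [h5, card_bot, one_mul, ← hm] at h4'
    have h6 : Nat.card (P : Subgroup N) * 1 = Nat.card (P : Subgroup N) * m := by rw [mul_one, ← h4']
    exact hm1 (Nat.eq_of_mul_eq_mul_left Nat.card_pos h6).symm
  · rw [h5, card_top] at h4'
    exact hP1 (Nat.eq_of_mul_eq_mul_left (Nat.card_pos (α := N)) (by rw [h4', mul_one]))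

end good

/-! ### Extremely primitive groups -/

section ept

variable {Q : Type*} [Group Q] [Finite Q] {A : Subgroup Q} {Γ : Subgroup (MulAut Q)} (h : EPT A Γ) {N : Subgroup Q}
  (hNA : N ≤ A) (hn : ∀ a ∈ A, ∀ n ∈ N, a * n * a⁻¹ ∈ N) (hsN : IsSimpleGroup N)
  (hC : ∀ a ∈ A, (∀ n ∈ N, a * n = n * a) → a = 1)

include hNA hn hsN hC in
/-- `N` is the least normal subgroup `≠ 1` of `A` -/
theorem le_of_norm {K : Subgroup Q} (hK : K ≤ A) (hKn : ∀ a ∈ A, ∀ k ∈ K, a * k * a⁻¹ ∈ K) (hne : K ≠ ⊥) : N ≤ K := by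
  have hKN : (K.subgroupOf N).Normal := ⟨fun k hk n => hKn n (hNA n.2) k hk⟩
  rcases hsN.eq_bot_or_eq_top_of_normal _ hKN with e | e
  · exfalso
    apply hne
    rw [Subgroup.eq_bot_iff_forall]
    intro k hk
    apply hC k (hK hk)
    intro n hn'
    have h5 : k * n * k⁻¹ * n⁻¹ ∈ N := N.mul_mem (hn k (hK hk) n hn') (N.inv_mem hn')
    have h6 : k * n * k⁻¹ * n⁻¹ ∈ K := by
      have e1 : k * n * k⁻¹ * n⁻¹ = k * (n * k⁻¹ * n⁻¹) := by group
      rw [e1]
      exact K.mul_mem hk (hKn n (hNA hn') _ (K.inv_mem hk))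
    have h7 : (⟨_, h5⟩ : N) ∈ K.subgroupOf N := h6
    rw [e, mem_bot] at h7
    have h8 : k * n * k⁻¹ * n⁻¹ = 1 := congrArg (fun y : N => (y : Q)) h7
    rw [mul_inv_eq_one, mul_inv_eq_iff_eq_mul] at h8
    exact h8
  · rwa [subgroupOf_eq_top] at e

include h hNA hn hsN hC in
/-- `N` is invariant under `Γ` -/
theorem map_mem {σ : MulAut Q} (hσ : σ ∈ Γ) {n : Q} (hn' : n ∈ N) : σ n ∈ N := by
  have h1 : N ≤ N.map (σ⁻¹ : MulAut Q).toMonoidHom := by
    refine le_of_norm hNA hn hsN hC ?_ ?_ ?_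
    · rintro _ ⟨y, hy, rfl⟩
      exact (h.inv _ (inv_mem hσ) y).2 (hNA hy)
    · rintro a ha _ ⟨y, hy, rfl⟩
      refine ⟨σ a * y * (σ a)⁻¹, hn _ ((h.inv σ hσ a).2 ha) y hy, ?_⟩
      show σ⁻¹ (σ a * y * (σ a)⁻¹) = a * σ⁻¹ y * a⁻¹
      rw [map_mul, map_mul, map_inv, MulAut.inv_apply_self]
    · rw [Ne, Subgroup.map_eq_bot_iff_of_injective _ (σ⁻¹ : MulAut Q).injective]
      rintro rfl
      exact (not_subsingleton (⊥ : Subgroup Q)) inferInstance
  obtain ⟨y, hy, e⟩ := h1 hn'
  have e' : σ⁻¹ y = n := e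
  rw [← e', MulAut.apply_inv_self]
  exact hy

include h hNA hn hsN hC in
/-- the two point stabilisers are good -/
theorem good_of {x : Q} (hx : x ∉ A) : Good (N.subgroupOf A) ((A ⊓ cj x A : Subgroup Q).subgroupOf A) := by
  refine ⟨?_, ?_, ?_⟩
  · intro hab
    obtain ⟨K, h1, h2, h3, h4⟩ := h.abM0 x hx fun a ha b hb =>
      congrArg (fun y : A => (y : Q)) (hab ⟨a, (mem_inf.1 ha).1⟩ ha ⟨b, (mem_inf.1 hb).1⟩ hb)
    have hKA : ∀ a ∈ A, ∀ k ∈ K, a * k * a⁻¹ ∈ K := fun a ha k hk => h2 _ ((h.conj a).2 ha) k hk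
    have h5 := le_of_norm hNA hn hsN hC h1 hKA h3
    obtain ⟨y, hy⟩ := exists_ne (1 : N)
    apply hy
    apply Subtype.ext
    exact hC y (hNA y.2) fun n hn' => h4 y (h5 y.2) n (h5 hn')
  · intro e
    rw [subgroupOf_eq_top] at e
    apply hx
    apply h.selfnorm
    intro a ha
    have h1 : A = cj x A := Subgroup.eq_of_le_of_card_ge (e.trans inf_le_right) (card_cj x A).le
    have h2 := conj_mem_cj (x := x) ha
    rwa [← h1] at h2
  · intro X hX hne g hg
    refine mem_subgroupOf.2 ⟨g.2, ?_⟩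
    have e0 : ∀ k : Q, k ∈ (X.map ((A ⊓ cj x A : Subgroup Q).subgroupOf A ⊓ N.subgroupOf A : Subgroup A).subtype).map
        A.subtype ↔ ∃ y : ((A ⊓ cj x A : Subgroup Q).subgroupOf A ⊓ N.subgroupOf A : Subgroup A), y ∈ X ∧ ((y : A) : Q) = k := by
      intro k
      constructor
      · rintro ⟨_, ⟨y, hy, rfl⟩, rfl⟩
        exact ⟨y, hy, rfl⟩
      · rintro ⟨y, hy, rfl⟩
        exact ⟨_, ⟨y, hy, rfl⟩, rfl⟩
    show (g : Q) ∈ cj x A
    rw [← h.conj_stab g.2]
    refine h.norm x hx ((X.map (Subgroup.subtype _)).map A.subtype) ?_ ?_ ?_ _ ((h.conj _).2 g.2) ?_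
    · intro k hk
      obtain ⟨y, -, rfl⟩ := (e0 k).1 hk
      exact (mem_inf.1 y.2).1
    · intro σ hσ hσx k hk
      obtain ⟨k, hkX, rfl⟩ := (e0 k).1 hk
      have hs : ∀ y : ((A ⊓ cj x A : Subgroup Q).subgroupOf A ⊓ N.subgroupOf A : Subgroup A),
          σ ((y : A) : Q) ∈ A := fun y => (h.inv σ hσ _).2 y.1.2
      let f : ((A ⊓ cj x A : Subgroup Q).subgroupOf A ⊓ N.subgroupOf A : Subgroup A) →*
          ((A ⊓ cj x A : Subgroup Q).subgroupOf A ⊓ N.subgroupOf A : Subgroup A) :=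
        { toFun := fun y => ⟨⟨σ ((y : A) : Q), hs y⟩, h.stab_M0 hσ hσx (mem_inf.1 y.2).1,
            map_mem h hNA hn hsN hC hσ (mem_inf.1 y.2).2⟩
          map_one' := Subtype.ext (Subtype.ext (map_one σ))
          map_mul' := fun y z => Subtype.ext (Subtype.ext (map_mul σ _ _)) }
      have hf : Function.Injective f := by
        intro y z e
        have e' : σ ((y : A) : Q) = σ ((z : A) : Q) := congrArg
          (fun w : ((A ⊓ cj x A : Subgroup Q).subgroupOf A ⊓ N.subgroupOf A : Subgroup A) => ((w : A) : Q)) e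
        exact Subtype.ext (Subtype.ext (σ.injective e'))
      let τ : MulAut ((A ⊓ cj x A : Subgroup Q).subgroupOf A ⊓ N.subgroupOf A : Subgroup A) :=
        MulEquiv.ofBijective f (Finite.injective_iff_bijective.1 hf)
      have hτ : X.map τ.toMonoidHom = X := Subgroup.characteristic_iff_map_eq.1 hX τ
      refine (e0 _).2 ⟨τ k, ?_, rfl⟩
      rw [← hτ]
      exact ⟨k, hkX, rfl⟩
    · rw [Ne, Subgroup.map_eq_bot_iff_of_injective _ A.subtype_injective,
        Subgroup.map_eq_bot_iff_of_injective _ (Subgroup.subtype_injective _)]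
      exact hne
    · intro k hk
      obtain ⟨_, hk', rfl⟩ := hk
      exact ⟨_, hg _ hk', rfl⟩

include h hNA hn hsN hC in
theorem index_le_good : A.index ≤ {M : Subgroup A | Good (N.subgroupOf A) M}.ncard ^ 2 := by
  refine h.index_le.trans (Nat.pow_le_pow_left ?_ 2)
  refine Set.ncard_le_ncard_of_injOn (fun M => M.subgroupOf A) ?_ ?_ (Set.toFinite _)
  · rintro _ ⟨x, hx, rfl⟩
    exact good_of h hNA hn hsN hC hx
  · rintro _ ⟨x, _, rfl⟩ _ ⟨y, _, rfl⟩ e
    have e' : (A ⊓ cj x A : Subgroup Q).subgroupOf A = (A ⊓ cj y A : Subgroup Q).subgroupOf A := e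
    have h1 := congrArg (fun M : Subgroup A => M.map A.subtype) e'
    simp only [subgroupOf_map_subtype] at h1
    rwa [inf_of_le_left inf_le_left, inf_of_le_left inf_le_left] at h1

end ept

/-! ### The socle `PSL₂(13)` -/

section l213

variable {G : Type*} [Group G] [Finite G] {N : Subgroup G} [hN : N.Normal]

theorem good_mem (hs : IsSimpleGroup N) (hc : Nat.card N = 1092) (hi : N.index ≤ 2) {M : Subgroup G} (h : Good N M) :
    M ∈ RS N 13 ∪ RS N 7 ∪ RS N 3 ∪ RS N 2 := by
  have p13 : Fact (Nat.Prime 13) := ⟨by norm_num⟩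
  have p7 : Fact (Nat.Prime 7) := ⟨by norm_num⟩
  have p3 : Fact (Nat.Prime 3) := ⟨by norm_num⟩
  have p2 : Fact (Nat.Prime 2) := ⟨by norm_num⟩
  have hKd : Nat.card (M ⊓ N : Subgroup G) ∣ 1092 := by
    rw [← hc]
    exact card_dvd_of_le inf_le_right
  -- the case of a unique Sylow subgroup
  have key : ∀ p : ℕ, ∀ [Fact p.Prime], p ∣ Nat.card (M ⊓ N : Subgroup G) → ¬ p ^ 2 ∣ 1092 →
      Nat.card (Sylow p (M ⊓ N : Subgroup G)) = 1 → M ∈ RS N p := by
    intro p hp hd hd1 hone
    have hsub : Subsingleton (Sylow p (M ⊓ N : Subgroup G)) := (Nat.card_eq_one_iff_unique.1 hone).1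
    obtain ⟨P⟩ : Nonempty (Sylow p (M ⊓ N : Subgroup G)) := inferInstance
    have h1 : (P : Subgroup (M ⊓ N : Subgroup G)).Characteristic := inferInstance
    obtain ⟨n, hn⟩ := IsPGroup.iff_card.1 P.2
    have hn' : Nat.card (P : Subgroup (M ⊓ N : Subgroup G)) = p ^ n := hn
    have h2 : p ^ n ∣ 1092 := by
      rw [← hn']
      exact (card_subgroup_dvd_card _).trans hKd
    have h3 : n < 2 := by
      by_contra hlt
      exact hd1 ((pow_dvd_pow p (by omega)).trans h2)
    have h4 : n ≠ 0 := by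
      rintro rfl
      have h5 := P.ne_bot_of_dvd_card hd
      rw [pow_zero, card_eq_one] at hn'
      exact h5 hn'
    have h5 : n = 1 := by omega
    subst h5
    exact h.mem_RS h1 hn' one_ne_zero (by rw [hc]; exact hd1)
  by_cases h13 : 13 ∣ Nat.card (M ⊓ N : Subgroup G)
  · have h1 : Nat.card (Sylow 13 (M ⊓ N : Subgroup G)) ∣ 84 := H342.EP.card_sylow_dvd (a := 1) (by norm_num; exact hKd)
    have h2 : Nat.card (Sylow 13 (M ⊓ N : Subgroup G)) % 13 = 1 := H342.EP.card_sylow_mod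
    have h3 : ∀ n ∈ Nat.divisors 84, n % 13 = 1 → n = 1 ∨ n = 14 := by decide
    rcases h3 _ (Nat.mem_divisors.2 ⟨h1, by norm_num⟩) h2 with h4 | h4
    · exact Or.inl (Or.inl (Or.inl (key 13 h13 (by norm_num) h4)))
    · exfalso
      obtain ⟨P⟩ : Nonempty (Sylow 13 (M ⊓ N : Subgroup G)) := inferInstance
      have h5 : 14 ∣ Nat.card (M ⊓ N : Subgroup G) := by
        rw [← h4]
        exact P.card_dvd_index.trans (index_dvd_card _)
      have h6 : 91 ∣ Nat.card (M ⊓ N : Subgroup G) := by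
        have : (91 : ℕ) ∣ Nat.lcm 14 13 := by decide
        exact this.trans (Nat.lcm_dvd h5 h13)
      have h7 : Nat.card ((M ⊓ N : Subgroup G).subgroupOf N) = Nat.card (M ⊓ N : Subgroup G) :=
        Nat.card_congr (subgroupOfEquivOfLe inf_le_right).toEquiv
      rw [← h7] at h6
      have h8 := H342.EP.eq_top_of_dvd hs hc h6
      rw [subgroupOf_eq_top] at h8
      exact h.not_le (by omega) (h8.trans inf_le_left)
  by_cases h7 : 7 ∣ Nat.card (M ⊓ N : Subgroup G)
  · have hK84 : Nat.card (M ⊓ N : Subgroup G) ∣ 7 ^ 1 * 12 := by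
      have h1 : (Nat.card (M ⊓ N : Subgroup G)).Coprime 13 := by
        rw [Nat.coprime_comm, Nat.Prime.coprime_iff_not_dvd p13.out]
        exact h13
      exact h1.dvd_of_dvd_mul_left (m := 13) (by norm_num; exact hKd)
    have h1 : Nat.card (Sylow 7 (M ⊓ N : Subgroup G)) ∣ 12 := H342.EP.card_sylow_dvd (a := 1) hK84
    have h2 : Nat.card (Sylow 7 (M ⊓ N : Subgroup G)) % 7 = 1 := H342.EP.card_sylow_mod
    have h3 : ∀ n ∈ Nat.divisors 12, n % 7 = 1 → n = 1 := by decide
    have h4 := h3 _ (Nat.mem_divisors.2 ⟨h1, by norm_num⟩) h2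
    exact Or.inl (Or.inl (Or.inr (key 7 h7 (by norm_num) h4)))
  have hK12 : Nat.card (M ⊓ N : Subgroup G) ∣ 3 ^ 1 * 4 := by
    have h1 : (Nat.card (M ⊓ N : Subgroup G)).Coprime (13 * 7) := by
      apply Nat.Coprime.mul_right
      · rw [Nat.coprime_comm, Nat.Prime.coprime_iff_not_dvd p13.out]
        exact h13
      · rw [Nat.coprime_comm, Nat.Prime.coprime_iff_not_dvd p7.out]
        exact h7
    exact h1.dvd_of_dvd_mul_left (m := 13 * 7) (by norm_num; exact hKd)
  by_cases h3 : 3 ∣ Nat.card (M ⊓ N : Subgroup G)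
  · have h1 : Nat.card (Sylow 3 (M ⊓ N : Subgroup G)) ∣ 4 := H342.EP.card_sylow_dvd (a := 1) hK12
    have h2 : Nat.card (Sylow 3 (M ⊓ N : Subgroup G)) % 3 = 1 := H342.EP.card_sylow_mod
    have h5 : ∀ n ∈ Nat.divisors 4, n % 3 = 1 → n = 1 ∨ n = 4 := by decide
    rcases h5 _ (Nat.mem_divisors.2 ⟨h1, by norm_num⟩) h2 with h4 | h4
    · exact Or.inl (Or.inr (key 3 h3 (by norm_num) h4))
    · refine Or.inr ?_
      obtain ⟨P⟩ : Nonempty (Sylow 3 (M ⊓ N : Subgroup G)) := inferInstance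
      have h6 : 4 ∣ Nat.card (M ⊓ N : Subgroup G) := by
        rw [← h4]
        exact P.card_dvd_index.trans (index_dvd_card _)
      have h8 : Nat.card (M ⊓ N : Subgroup G) = 12 := by
        have h9 : (12 : ℕ) ∣ Nat.card (M ⊓ N : Subgroup G) := by
          have : (12 : ℕ) ∣ Nat.lcm 4 3 := by decide
          exact this.trans (Nat.lcm_dvd h6 h3)
        exact Nat.dvd_antisymm (hK12.trans (by norm_num)) h9
      obtain ⟨W, hW1, hW2, -⟩ := H342.EP.exists_V h8 h4
      have hWc : W.Characteristic := by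
        rw [characteristic_iff_le_comap]
        intro φ w hw
        refine hW2 _ ?_
        have h9 : w ^ 4 = 1 := by
          have h10 := pow_card_eq_one' (x := (⟨w, hw⟩ : W))
          rw [hW1] at h10
          exact Subtype.ext_iff.1 h10
        show (φ w) ^ 4 = 1
        rw [← map_pow, h9, map_one]
      exact h.mem_RS (n := 2) hWc (by rw [hW1]; norm_num) two_ne_zero (by rw [hc]; norm_num)
  · refine Or.inr ?_
    have hK4 : Nat.card (M ⊓ N : Subgroup G) ∣ 4 := by
      have h1 : (Nat.card (M ⊓ N : Subgroup G)).Coprime 3 := by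
        rw [Nat.coprime_comm, Nat.Prime.coprime_iff_not_dvd p3.out]
        exact h3
      exact h1.dvd_of_dvd_mul_left (m := 3) (by norm_num at hK12 ⊢; exact hK12)
    have h2 : ∀ n ∈ Nat.divisors 4, n = 1 ∨ n = 2 ∨ n = 4 := by decide
    rcases h2 _ (Nat.mem_divisors.2 ⟨hK4, by norm_num⟩) with h4 | h4 | h4
    · exact absurd (card_eq_one.1 h4) (h.inf_ne (by omega))
    · exfalso
      -- a Sylow 2-subgroup of `N` centralises `M ∩ N`
      have hKne : (⊤ : Subgroup (M ⊓ N : Subgroup G)) ≠ ⊥ := by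
        intro e
        have e' := congrArg (fun X : Subgroup (M ⊓ N : Subgroup G) => Nat.card X) e
        simp only [card_top, card_bot] at e'
        omega
      have e1 : (⊤ : Subgroup (M ⊓ N : Subgroup G)).map (M ⊓ N : Subgroup G).subtype = M ⊓ N := by
        rw [← MonoidHom.range_eq_map, range_subtype]
      have hM := h.eq_norm (X := ⊤) inferInstance hKne
      rw [e1] at hM
      have hp2 : IsPGroup 2 ((M ⊓ N).subgroupOf N) := by
        refine IsPGroup.of_card (n := 1) ?_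
        rw [Nat.card_congr (subgroupOfEquivOfLe (inf_le_right : M ⊓ N ≤ N)).toEquiv, h4]
        norm_num
      obtain ⟨P, hP⟩ := hp2.exists_le_sylow
      have hPc : Nat.card P = 2 ^ 2 := card_sylow_eq (m := 273) P (by rw [hc]; norm_num) (by norm_num)
      have hcom := IsPGroup.isMulCommutative_of_card_eq_prime_sq (p := 2) (G := P) hPc
      have hle : (P : Subgroup N).map N.subtype ≤ M ⊓ N := by
        rintro _ ⟨y, hy, rfl⟩
        refine ⟨?_, y.2⟩
        show (y : G) ∈ M
        rw [hM, mem_normalizer_iff]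
        have hy' : ∀ k ∈ M ⊓ N, (y : G) * k = k * y := by
          intro k hk
          have h5 : (⟨k, (mem_inf.1 hk).2⟩ : N) ∈ (P : Subgroup N) := hP hk
          have h6 := hcom.is_comm.comm (⟨y, hy⟩ : P) ⟨⟨k, (mem_inf.1 hk).2⟩, h5⟩
          exact congrArg (fun z : P => ((z : N) : G)) h6
        intro k
        constructor
        · intro hk
          show (y : G) * k * (y : G)⁻¹ ∈ M ⊓ N
          rw [hy' k hk, mul_inv_cancel_right]
          exact hk
        · intro hk
          have h7 : (y : G) * k * (y : G)⁻¹ ∈ M ⊓ N := hk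
          have h8 := hy' _ h7
          have h9 : (y : G) * k * (y : G)⁻¹ = k := by
            have : (y : G) * ((y : G) * k * (y : G)⁻¹) = (y : G) * k := by rw [h8, inv_mul_cancel_right]
            exact mul_left_cancel this
          rw [← h9]
          exact h7
      have h10 := Nat.card_le_card_of_injective _ (inclusion_injective hle)
      rw [h4, Nat.card_congr ((P : Subgroup N).equivMapOfInjective _ N.subtype_injective).symm.toEquiv] at h10
      have h11 : Nat.card (P : Subgroup N) = 2 ^ 2 := hPc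
      omega
    · exact h.mem_RS (n := 2) (X := ⊤) inferInstance (by rw [card_top, h4]; norm_num) two_ne_zero
        (by rw [hc]; norm_num)

theorem card_good_le (hs : IsSimpleGroup N) (hc : Nat.card N = 1092) (hi : N.index ≤ 2) :
    {M : Subgroup G | Good N M}.ncard ≤ 274 := by
  have p13 : Fact (Nat.Prime 13) := ⟨by norm_num⟩
  have p7 : Fact (Nat.Prime 7) := ⟨by norm_num⟩
  have p3 : Fact (Nat.Prime 3) := ⟨by norm_num⟩
  have p2 : Fact (Nat.Prime 2) := ⟨by norm_num⟩
  have c13 : (RS N 13).ncard ≤ 14 := by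
    refine ncard_RS.trans ?_
    have h1 : Nat.card (Sylow 13 N) ∣ 84 := H342.EP.card_sylow_dvd (a := 1) (by norm_num; rw [hc])
    have h3 : ∀ n ∈ Nat.divisors 84, n % 13 = 1 → n ≤ 14 := by decide
    exact h3 _ (Nat.mem_divisors.2 ⟨h1, by norm_num⟩) H342.EP.card_sylow_mod
  have c7 : (RS N 7).ncard ≤ 78 := by
    refine ncard_RS.trans ?_
    have h1 : Nat.card (Sylow 7 N) ∣ 156 := H342.EP.card_sylow_dvd (a := 1) (by norm_num; rw [hc])
    have h3 : ∀ n ∈ Nat.divisors 156, n % 7 = 1 → n ≤ 78 := by decide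
    exact h3 _ (Nat.mem_divisors.2 ⟨h1, by norm_num⟩) H342.EP.card_sylow_mod
  have c3 : (RS N 3).ncard ≤ 91 := by
    refine ncard_RS.trans ?_
    have h1 : Nat.card (Sylow 3 N) ∣ 364 := H342.EP.card_sylow_dvd (a := 1) (by norm_num; rw [hc])
    obtain ⟨P⟩ : Nonempty (Sylow 3 N) := inferInstance
    have hPc : Nat.card P = 3 ^ 1 := card_sylow_eq (m := 364) P (by rw [hc]; norm_num) (by norm_num)
    have hPc' : Nat.card (P : Subgroup N) = 3 := by
      have h5 : Nat.card (P : Subgroup N) = 3 ^ 1 := hPc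
      rw [h5, pow_one]
    have hcyc : IsCyclic (P : Subgroup N) := isCyclic_of_prime_card (p := 3) hPc'
    have h2 := card_sylow_ne (m := 364) hs P (fun a ha b hb =>
      Subtype.ext_iff.1 (hcyc.isMulCommutative.is_comm.comm (⟨a, ha⟩ : (P : Subgroup N)) ⟨b, hb⟩))
      (by rw [hPc', hc]) (by norm_num) (by rw [hPc']; norm_num)
    have h3 : ∀ n ∈ Nat.divisors 364, n % 3 = 1 → n ≠ 364 → n ≤ 91 := by decide
    exact h3 _ (Nat.mem_divisors.2 ⟨h1, by norm_num⟩) H342.EP.card_sylow_mod h2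
  have c2 : (RS N 2).ncard ≤ 91 := by
    refine ncard_RS.trans ?_
    have h1 : Nat.card (Sylow 2 N) ∣ 273 := H342.EP.card_sylow_dvd (a := 2) (by norm_num; rw [hc])
    obtain ⟨P⟩ : Nonempty (Sylow 2 N) := inferInstance
    have hPc : Nat.card P = 2 ^ 2 := card_sylow_eq (m := 273) P (by rw [hc]; norm_num) (by norm_num)
    have hPc' : Nat.card (P : Subgroup N) = 4 := by
      have h5 : Nat.card (P : Subgroup N) = 2 ^ 2 := hPc
      rw [h5]
      norm_num
    have hcom := IsPGroup.isMulCommutative_of_card_eq_prime_sq (p := 2) (G := P) hPc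
    have h2 := card_sylow_ne (m := 273) hs P (fun a ha b hb =>
      congrArg (fun z : P => (z : N)) (hcom.is_comm.comm (⟨a, ha⟩ : P) ⟨b, hb⟩))
      (by rw [hPc', hc]) (by norm_num) (by rw [hPc']; norm_num)
    have h3 : ∀ n ∈ Nat.divisors 273, n ≠ 273 → n ≤ 91 := by decide
    exact h3 _ (Nat.mem_divisors.2 ⟨h1, by norm_num⟩) h2
  have hsub : {M : Subgroup G | Good N M} ⊆ RS N 13 ∪ RS N 7 ∪ RS N 3 ∪ RS N 2 :=
    fun M hM => good_mem hs hc hi hM
  refine (Set.ncard_le_ncard hsub (Set.toFinite _)).trans ?_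
  refine (Set.ncard_union_le _ _).trans ?_
  have e1 := Set.ncard_union_le (RS N 13 ∪ RS N 7) (RS N 3)
  have e2 := Set.ncard_union_le (RS N 13) (RS N 7)
  omega

end l213

/-- **The socle is `PSL₂(13)`: `|Q : A| ≤ 274² = 75076`.** -/
theorem l213 {F : Type} [Field F] [Fintype F] (hF : Fintype.card F = 13) {Q : Type*} [Group Q] [Finite Q]
    {A : Subgroup Q} {Γ : Subgroup (MulAut Q)} (h : EPT A Γ)
    (hS : Cfsg.Agent.H419.EP.HasSoc A (Matrix.ProjectiveSpecialLinearGroup (Fin 2) F)) : A.index ≤ 75076 := by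
  have hF13 : Fact (Nat.Prime 13) := ⟨by norm_num⟩
  have f := Cfsg.Agent.LieClassical.FieldTransfer.pslCongr (ι := Fin 2) (ZMod.ringEquivOfPrime F (p := 13)
    (by norm_num) hF).symm
  have hS' := hS.congr f
  have hsL : IsSimpleGroup (Matrix.ProjectiveSpecialLinearGroup (Fin 2) (ZMod 13)) :=
    Matrix.ProjectiveSpecialLinearGroup.rank_two_simple (by rw [Nat.card_zmod]; norm_num)
  have hle := hS'.card_le
  rw [H342.EP.card_aut13] at hle
  obtain ⟨N, hNA, hn, hC, ⟨e⟩⟩ := hS'
  have hsN : IsSimpleGroup N := e.isSimpleGroup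
  have hc : Nat.card N = 1092 := by rw [Nat.card_congr e.toEquiv, H342.EP.card_psl13]
  have hN' : (N.subgroupOf A).Normal := ⟨fun k hk a => hn a a.2 k hk⟩
  let f : N.subgroupOf A ≃* N := subgroupOfEquivOfLe hNA
  have hc' : Nat.card (N.subgroupOf A) = 1092 := by rw [Nat.card_congr f.toEquiv, hc]
  have hs' : IsSimpleGroup (N.subgroupOf A) := f.isSimpleGroup
  have hi : (N.subgroupOf A).index ≤ 2 := by
    have h1 := card_mul_index (N.subgroupOf A)
    rw [hc'] at h1
    omega
  have h1 := card_good_le hs' hc' hi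
  exact (index_le_good h hNA hn hsN hC).trans ((Nat.pow_le_pow_left h1 2).trans (by norm_num))

end Cfsg.Agent.H919.EPX
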